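import Mathlib
import Cfsg.Agent.H668.Five.Rows

/-!
# S4874, row `PSL₃(2^k)`, `k ≥ 3` (helper239, for helper668)
-/

set_option autoImplicit false

open Cfsg Matrix
open Cfsg.Agent.H668.Five

namespace Cfsg.Agent.H239.FiveL3

variable {F : Type} [Field F]

local notation "SL" => Matrix.SpecialLinearGroup (Fin 3)
local notation "PSL" => Matrix.ProjectiveSpecialLinearGroup (Fin 3)

theorem mul_apply' (g h : SL F) (i j : Fin 3) :
    (g * h : SL F) i j = g i 0 * h 0 j + g i 1 * h 1 j + g i 2 * h 2 j := by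
  show ((g : Matrix (Fin 3) (Fin 3) F) * (h : Matrix (Fin 3) (Fin 3) F)) i j = _
  rw [Matrix.mul_apply, Fin.sum_univ_three]

/-- upper triangular matrices -/
def Bor (F : Type) [Field F] [Finite F] : Subgroup (SL F) where
  carrier := {g | g 1 0 = 0 ∧ g 2 0 = 0 ∧ g 2 1 = 0}
  mul_mem' := by
    rintro g h ⟨h1, h2, h3⟩ ⟨h4, h5, h6⟩
    refine ⟨?_, ?_, ?_⟩ <;> rw [mul_apply'] <;> simp [h1, h2, h3, h4, h5, h6]
  one_mem' := by simp
  inv_mem' := by
    intro g hg
    have hpow : ∀ n : ℕ, (g ^ n) 1 0 = 0 ∧ (g ^ n) 2 0 = 0 ∧ (g ^ n) 2 1 = 0 := by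
      intro n
      induction n with
      | zero => simp
      | succ n ih =>
        obtain ⟨h1, h2, h3⟩ := ih
        obtain ⟨h4, h5, h6⟩ := hg
        rw [pow_succ]
        refine ⟨?_, ?_, ?_⟩ <;> rw [mul_apply'] <;> simp [h1, h2, h3, h4, h5, h6]
    have h1 : g⁻¹ = g ^ (Nat.card (SL F) - 1) := by
      apply inv_eq_of_mul_eq_one_right
      rw [← pow_succ', Nat.sub_add_cancel Nat.card_pos, pow_card_eq_one']
    show g⁻¹ 1 0 = 0 ∧ g⁻¹ 2 0 = 0 ∧ g⁻¹ 2 1 = 0
    rw [h1]
    exact hpow _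

/-- the diagonal -/
def dia (F : Type) [Field F] [Finite F] : Bor F →* F × F × F where
  toFun g := ((g : SL F) 0 0, (g : SL F) 1 1, (g : SL F) 2 2)
  map_one' := by simp
  map_mul' := by
    rintro ⟨g, h1, h2, h3⟩ ⟨h, h4, h5, h6⟩
    ext
    · show (g * h : SL F) 0 0 = g 0 0 * h 0 0
      rw [mul_apply', h4, h5]; ring
    · show (g * h : SL F) 1 1 = g 1 1 * h 1 1
      rw [mul_apply', h6, h1]; ring
    · show (g * h : SL F) 2 2 = g 2 2 * h 2 2
      rw [mul_apply', h2, h3]; ring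

theorem det_bor [Finite F] {g : SL F} (hg : g ∈ Bor F) : g 0 0 * g 1 1 * g 2 2 = 1 := by
  obtain ⟨h1, h2, h3⟩ := hg
  have h := g.det_coe
  rw [Matrix.det_fin_three] at h
  rw [h1, h2, h3] at h
  linear_combination h

/-- `1 + E₁₃` -/
def zz (F : Type) [Field F] : SL F := ⟨!![1, 0, 1; 0, 1, 0; 0, 0, 1], by simp [Matrix.det_fin_three]⟩
/-- an element of order four -/
def vv (F : Type) [Field F] : SL F := ⟨!![1, 1, 0; 0, 1, 1; 0, 0, 1], by simp [Matrix.det_fin_three]⟩
def uu (F : Type) [Field F] : SL F := ⟨!![1, 1, 0; 0, 1, 0; 0, 0, 1], by simp [Matrix.det_fin_three]⟩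
def tt (t : Fˣ) : SL F := ⟨!![(t : F), 0, 0; 0, ((t⁻¹ * t⁻¹ : Fˣ) : F), 0; 0, 0, (t : F)], by
  rw [Matrix.det_fin_three]; simp⟩

def pr (F : Type) [Field F] : SL F →* PSL F := QuotientGroup.mk' _

theorem pr_eq_iff {g h : SL F} : pr F g = pr F h ↔ ∃ r : F, r ^ 3 = 1 ∧ ∀ i j, h i j = r * g i j := by
  unfold pr
  rw [QuotientGroup.mk'_apply, QuotientGroup.mk'_apply, QuotientGroup.eq, Matrix.SpecialLinearGroup.mem_center_iff]
  constructor
  · rintro ⟨r, hr, hs⟩
    refine ⟨r, by simpa using hr, fun i j => ?_⟩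
    have h1 : (h : Matrix (Fin 3) (Fin 3) F) = (g : Matrix (Fin 3) (Fin 3) F) * scalar (Fin 3) r := by
      rw [hs, ← Matrix.SpecialLinearGroup.coe_mul, mul_inv_cancel_left]
    rw [h1]
    simp [Matrix.scalar_apply, Matrix.mul_diagonal, mul_comm]
  · rintro ⟨r, hr, hs⟩
    refine ⟨r, by simpa using hr, ?_⟩
    have h1 : (h : Matrix (Fin 3) (Fin 3) F) = (g : Matrix (Fin 3) (Fin 3) F) * scalar (Fin 3) r := by
      ext i j
      rw [hs]
      simp [Matrix.scalar_apply, Matrix.mul_diagonal, mul_comm]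
    rw [Matrix.SpecialLinearGroup.coe_mul, h1, ← mul_assoc, ← Matrix.SpecialLinearGroup.coe_mul, inv_mul_cancel,
      Matrix.SpecialLinearGroup.coe_one, one_mul]

theorem pr_surj : Function.Surjective (pr F) := QuotientGroup.mk'_surjective _

/-- the centraliser of `z` -/
theorem of_comm [Finite F] {g : SL F} (h : pr F g * pr F (zz F) = pr F (zz F) * pr F g) : g ∈ Bor F ∧ g 2 2 = g 0 0 := by
  rw [← map_mul, ← map_mul, pr_eq_iff] at h
  obtain ⟨r, -, hr⟩ := h
  have e : ∀ i j, (zz F * g : SL F) i j = r * (g * zz F : SL F) i j := hr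
  have z00 : (zz F : SL F) 0 0 = 1 := rfl
  have z01 : (zz F : SL F) 0 1 = 0 := rfl
  have z02 : (zz F : SL F) 0 2 = 1 := rfl
  have z10 : (zz F : SL F) 1 0 = 0 := rfl
  have z11 : (zz F : SL F) 1 1 = 1 := rfl
  have z12 : (zz F : SL F) 1 2 = 0 := rfl
  have z20 : (zz F : SL F) 2 0 = 0 := rfl
  have z21 : (zz F : SL F) 2 1 = 0 := rfl
  have z22 : (zz F : SL F) 2 2 = 1 := rfl
  have e00 := e 0 0
  have e01 := e 0 1
  have e02 := e 0 2
  have e10 := e 1 0
  have e12 := e 1 2
  have e20 := e 2 0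
  have e21 := e 2 1
  have e22 := e 2 2
  rw [mul_apply', mul_apply'] at e00 e01 e02 e10 e12 e20 e21 e22
  simp only [z00, z01, z02, z10, z11, z12, z20, z21, z22, zero_mul, one_mul, mul_zero, mul_one, zero_add,
    add_zero] at e00 e01 e02 e10 e12 e20 e21 e22
  have hr1 : r = 1 := by
    by_contra hne
    have hne' : r - 1 ≠ 0 := sub_ne_zero.mpr hne
    have a20 : g 2 0 = 0 := by
      have : (r - 1) * g 2 0 = 0 := by linear_combination -e20
      exact (mul_eq_zero.mp this).resolve_left hne'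
    have a21 : g 2 1 = 0 := by
      have : (r - 1) * g 2 1 = 0 := by linear_combination -e21
      exact (mul_eq_zero.mp this).resolve_left hne'
    have a22 : g 2 2 = 0 := by
      have : (r - 1) * g 2 2 = 0 := by linear_combination -e22 - r * a20
      exact (mul_eq_zero.mp this).resolve_left hne'
    have hd := g.det_coe
    rw [Matrix.det_fin_three, a20, a21, a22] at hd
    simp at hd
  subst hr1
  have a20 : g 2 0 = 0 := by linear_combination e00
  have a21 : g 2 1 = 0 := by linear_combination e01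
  have a10 : g 1 0 = 0 := by linear_combination -e12
  exact ⟨⟨a10, a20, a21⟩, by linear_combination e02⟩

theorem sl_ext {g h : SL F} (e00 : g 0 0 = h 0 0) (e01 : g 0 1 = h 0 1) (e02 : g 0 2 = h 0 2) (e10 : g 1 0 = h 1 0)
    (e11 : g 1 1 = h 1 1) (e12 : g 1 2 = h 1 2) (e20 : g 2 0 = h 2 0) (e21 : g 2 1 = h 2 1) (e22 : g 2 2 = h 2 2) :
    g = h := by
  apply Subtype.ext
  ext i j
  fin_cases i <;> fin_cases j <;> assumption

/-- the torus -/
def ttH (F : Type) [Field F] : Fˣ →* SL F where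
  toFun := tt
  map_one' := by
    apply sl_ext <;> simp [tt]
  map_mul' s t := by
    apply sl_ext <;> rw [mul_apply'] <;> simp [tt] <;> ring

theorem comm_tt_zz (t : Fˣ) : tt t * zz F = zz F * tt t := by
  apply sl_ext <;> rw [mul_apply', mul_apply'] <;> simp [tt, zz]

theorem comm_uu_zz : uu F * zz F = zz F * uu F := by
  apply sl_ext <;> rw [mul_apply', mul_apply'] <;> simp [uu, zz]

/-- unipotent elements have order dividing four -/
theorem uni_pow [Finite F] (h2 : (2 : F) = 0) {g : SL F} (hg : g ∈ (dia F).ker.map (Bor F).subtype) : g ^ 2 ^ 2 = 1 := by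
  obtain ⟨⟨g, h10, h20, h21⟩, hk, rfl⟩ := hg
  have h1 : ((g 0 0, g 1 1, g 2 2) : F × F × F) = (1, 1, 1) := hk
  rw [Prod.mk.injEq, Prod.mk.injEq] at h1
  obtain ⟨h00, h11, h22⟩ := h1
  show g ^ 2 ^ 2 = 1
  have e00 : (g * g : SL F) 0 0 = 1 := by rw [mul_apply', h00, h10, h20]; ring
  have e01 : (g * g : SL F) 0 1 = 0 := by rw [mul_apply', h00, h11, h21]; linear_combination (g 0 1) * h2
  have e02 : (g * g : SL F) 0 2 = g 0 1 * g 1 2 := by rw [mul_apply', h00, h22]; linear_combination (g 0 2) * h2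
  have e10 : (g * g : SL F) 1 0 = 0 := by rw [mul_apply', h10, h20]; ring
  have e11 : (g * g : SL F) 1 1 = 1 := by rw [mul_apply', h10, h11, h21]; ring
  have e12 : (g * g : SL F) 1 2 = 0 := by rw [mul_apply', h10, h11, h22]; linear_combination (g 1 2) * h2
  have e20 : (g * g : SL F) 2 0 = 0 := by rw [mul_apply', h10, h20]; ring
  have e21 : (g * g : SL F) 2 1 = 0 := by rw [mul_apply', h20, h21]; ring
  have e22 : (g * g : SL F) 2 2 = 1 := by rw [mul_apply', h20, h21, h22]; ring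
  have h4 : g ^ 2 ^ 2 = (g * g) * (g * g) := by
    rw [show 2 ^ 2 = 1 + 1 + 1 + 1 from rfl, pow_add, pow_add, pow_add, pow_one, mul_assoc (g * g)]
  rw [h4]
  apply sl_ext <;> rw [mul_apply'] <;> simp only [e00, e01, e02, e10, e11, e12, e20, e21, e22]
  all_goals simp
  linear_combination (g 0 1 * g 1 2) * h2

theorem vv_sq (h2 : (2 : F) = 0) : vv F * vv F = zz F := by
  apply sl_ext <;> rw [mul_apply'] <;> simp [vv, zz]
  all_goals linear_combination h2

theorem zz_sq (h2 : (2 : F) = 0) : zz F * zz F = 1 := by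
  apply sl_ext <;> rw [mul_apply'] <;> simp [zz]
  all_goals linear_combination h2

theorem pr_zz_ne : pr F (zz F) ≠ 1 := by
  rw [← map_one (pr F)]
  intro h
  obtain ⟨r, -, hr⟩ := pr_eq_iff.mp h
  have h1 := hr 0 2
  have h2 : (1 : SL F) 0 2 = 0 := rfl
  have h3 : (zz F) 0 2 = 1 := rfl
  rw [h2, h3, mul_one] at h1
  have h4 := hr 0 0
  have h5 : (1 : SL F) 0 0 = 1 := rfl
  rw [h5, ← h1, zero_mul] at h4
  exact one_ne_zero h4

theorem row_psl_three_even (F : Type) [Field F] [Fintype F] (hF : Even (Fintype.card F))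
    (hF8 : 8 ≤ Fintype.card F) : Good4 (Matrix.ProjectiveSpecialLinearGroup (Fin 3) F) := by
  classical
  have h2 : (2 : F) = 0 := by
    have h1 : ringChar F = 2 := FiniteField.even_card_iff_char_two.mpr (Nat.even_iff.mp hF)
    have : CharP F 2 := by
      rw [← h1]
      exact ringChar.charP F
    exact CharTwo.two_eq_zero
  have hz2 : (pr F (zz F)) ^ 2 = 1 := by
    rw [pow_two, ← map_mul, zz_sq h2, map_one]
  have hzo : orderOf (pr F (zz F)) = 2 := orderOf_eq_prime hz2 pr_zz_ne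
  have hvo : orderOf (pr F (vv F)) = 4 := by
    have h1 : (pr F (vv F)) ^ 2 = pr F (zz F) := by
      rw [pow_two, ← map_mul, vv_sq h2]
    have h3 : orderOf (pr F (vv F)) = 2 ^ (1 + 1) := by
      apply orderOf_eq_prime_pow
      · rw [pow_one, h1]
        exact pr_zz_ne
      · rw [show 2 ^ (1 + 1) = 2 * 2 from rfl, pow_mul, h1, hz2]
    exact h3
  let z := pr F (zz F)
  let C := Subgroup.centralizer ({z} : Set (PSL F))
  let U : Subgroup (SL F) := (dia F).ker.map (Bor F).subtype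
  let Q : Subgroup C := (U.map (pr F)).subgroupOf C
  have hCrep : ∀ x : C, ∃ g : Bor F, pr F (g : SL F) = (x : PSL F) ∧ (g : SL F) 2 2 = (g : SL F) 0 0 := by
    intro x
    obtain ⟨g, hg⟩ := pr_surj (x : PSL F)
    have h1 : (x : PSL F) * z = z * x := Subgroup.mem_centralizer_singleton_iff.mp x.2
    rw [← hg] at h1
    obtain ⟨h3, h4⟩ := of_comm h1
    exact ⟨⟨g, h3⟩, hg, h4⟩
  have hQn : Q.Normal := by
    constructor
    intro u hu x
    obtain ⟨g, hg, -⟩ := hCrep x
    obtain ⟨w, ⟨b, hb, rfl⟩, hw⟩ := hu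
    refine ⟨((g * b * g⁻¹ : Bor F) : SL F), ⟨g * b * g⁻¹, ?_, rfl⟩, ?_⟩
    · exact (dia F).normal_ker.conj_mem b hb g
    · show pr F ((g : SL F) * b * (g : SL F)⁻¹) = (x : PSL F) * u * (x : PSL F)⁻¹
      rw [map_mul, map_mul, map_inv, hg]
      have hw' : pr F (b : SL F) = (u : PSL F) := hw
      rw [hw']
  have hQ2 : IsPGroup 2 Q := by
    rintro ⟨u, hu⟩
    refine ⟨2, ?_⟩
    obtain ⟨w, hw, hwu⟩ := hu
    apply Subtype.ext
    apply Subtype.ext
    show (u : PSL F) ^ 2 ^ 2 = 1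
    have hwu' : pr F w = (u : PSL F) := hwu
    rw [← hwu', ← map_pow, uni_pow h2 hw, map_one]
  have hq1 : Odd (Fintype.card F - 1) := by
    obtain ⟨k, hk⟩ := hF
    exact ⟨k - 1, by omega⟩
  have hpow : ∀ x : C, x ^ (Fintype.card F - 1) ∈ Q := by
    intro x
    obtain ⟨g, hg, h22⟩ := hCrep x
    refine ⟨((g ^ (Fintype.card F - 1) : Bor F) : SL F), ⟨g ^ (Fintype.card F - 1), ?_, rfl⟩, ?_⟩
    · show dia F (g ^ (Fintype.card F - 1)) = 1
      rw [map_pow]
      have hd := det_bor g.2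
      have h0 : (g : SL F) 0 0 ≠ 0 := by
        intro h
        rw [h] at hd
        simp at hd
      have h1 : (g : SL F) 1 1 ≠ 0 := by
        intro h
        rw [h] at hd
        simp at hd
      have h22' : (g : SL F) 2 2 ≠ 0 := by
        rw [h22]
        exact h0
      show (((g : SL F) 0 0, (g : SL F) 1 1, (g : SL F) 2 2) : F × F × F) ^ (Fintype.card F - 1) = (1, 1, 1)
      rw [Prod.pow_mk, Prod.pow_mk, FiniteField.pow_card_sub_one_eq_one _ h0,
        FiniteField.pow_card_sub_one_eq_one _ h1, FiniteField.pow_card_sub_one_eq_one _ h22']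
    · show pr F ((g : SL F) ^ (Fintype.card F - 1)) = (x : PSL F) ^ (Fintype.card F - 1)
      rw [map_pow, hg]
  have hQi : ¬ 2 ∣ Q.index := by
    intro h
    rw [Subgroup.index_eq_card] at h
    have : Fact (Nat.Prime 2) := ⟨Nat.prime_two⟩
    obtain ⟨y, hy⟩ := exists_prime_orderOf_dvd_card' 2 h
    obtain ⟨x, rfl⟩ := QuotientGroup.mk_surjective y
    have h1 : ((x : C ⧸ Q)) ^ (Fintype.card F - 1) = 1 := by
      rw [← QuotientGroup.mk_pow, QuotientGroup.eq_one_iff]
      exact hpow x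
    have h3 := orderOf_dvd_of_pow_eq_one h1
    rw [hy] at h3
    exact (Nat.not_even_iff_odd.mpr hq1) (even_iff_two_dvd.mpr h3)
  -- the odd order element
  obtain ⟨t, ht⟩ : ∃ t : Fˣ, (t : F) ^ 3 ≠ 1 := by
    by_contra hcon
    push Not at hcon
    have h1 : Fintype.card Fˣ ≤ 3 := by
      classical
      have h3 : (Finset.univ.image (fun t : Fˣ => (t : F))) ⊆ (Polynomial.nthRoots 3 (1 : F)).toFinset := by
        intro y hy
        obtain ⟨t, -, rfl⟩ := Finset.mem_image.mp hy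
        rw [Multiset.mem_toFinset, Polynomial.mem_nthRoots (by norm_num)]
        exact hcon t
      have h4 := Finset.card_le_card h3
      rw [Finset.card_image_of_injective _ Units.val_injective, Finset.card_univ] at h4
      exact h4.trans ((Multiset.toFinset_card_le _).trans (Polynomial.card_nthRoots 3 1))
    rw [Fintype.card_units] at h1
    omega
  have hhC : pr F (tt t) ∈ C := by
    rw [Subgroup.mem_centralizer_singleton_iff]
    show pr F (tt t) * pr F (zz F) = pr F (zz F) * pr F (tt t)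
    rw [← map_mul, ← map_mul, comm_tt_zz]
  have haC : pr F (uu F) ∈ C := by
    rw [Subgroup.mem_centralizer_singleton_iff]
    show pr F (uu F) * pr F (zz F) = pr F (zz F) * pr F (uu F)
    rw [← map_mul, ← map_mul, comm_uu_zz]
  have haQ : (⟨pr F (uu F), haC⟩ : C) ∈ Q := by
    refine ⟨uu F, ⟨⟨uu F, rfl, rfl, rfl⟩, ?_, rfl⟩, rfl⟩
    show ((uu F) 0 0, (uu F) 1 1, (uu F) 2 2) = ((1, 1, 1) : F × F × F)
    rfl
  have hNN : NN z := by
    refine not_compl_of_act Q hQ2 ⟨pr F (tt t), hhC⟩ ?_ (fun a ha => hQn.conj_mem a ha _) haQ ?_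
    · rw [Subgroup.orderOf_mk]
      have h1 : (pr F (tt t)) ^ (Fintype.card F - 1) = 1 := by
        rw [← map_pow]
        have h3 : tt t ^ (Fintype.card F - 1) = 1 := by
          show (ttH F t) ^ (Fintype.card F - 1) = 1
          classical
          rw [← map_pow, ← Fintype.card_units, pow_card_eq_one, map_one]
        rw [h3, map_one]
      exact hq1.of_dvd_nat (orderOf_dvd_of_pow_eq_one h1)
    · intro h
      have h1 : pr F (tt t * uu F) = pr F (uu F * tt t) := by
        rw [map_mul, map_mul]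
        exact congrArg Subtype.val h
      obtain ⟨r, -, hr⟩ := pr_eq_iff.mp h1
      have e0 := hr 0 0
      have e1 := hr 0 1
      rw [mul_apply', mul_apply'] at e0 e1
      simp [tt, uu] at e0 e1
      have hr1 : r = 1 := e0
      apply ht
      rw [hr1, one_mul] at e1
      have ht0 : (t : F) ≠ 0 := t.ne_zero
      field_simp at e1
      linear_combination -e1
  exact ⟨z, pr F (vv F), hzo, hNN, ⟨Q, hQn, hQ2, hQi⟩, hvo⟩

end Cfsg.Agent.H239.FiveL3
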