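import Cfsg.Agent.H202.TP.Defs
import Cfsg.Agent.H104.TSp
import Cfsg.Agent.H982.LawFam
import Cfsg.Agent.H376.PrimeOrd
import Cfsg.Agent.LieClassical.SympCenter
import Cfsg.Agent.LieClassical.OrthCenter
import Cfsg.Agent.LieClassical.OmegaReindex
import Cfsg.Agent.S0248

/-!
# Block TP (S3536): the symplectic and odd orthogonal candidates (helper239, task 3258 of helper202)

* `psp` : `PSp_{2d}(u)`, `p ∤ u`, does not satisfy `TK p q k`;
* `oodd` : the same for `PΩ_{2d+1}(u)`.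
-/

set_option autoImplicit false

open Matrix

namespace Cfsg.Agent.H239.TPSp

open Cfsg Cfsg.Agent.H202.TP Cfsg.Agent.H436 Cfsg.Agent.OrdDiv Cfsg.Agent.H94.PG

/-! ### `SL_d` in `PSp_{2d}`, `PΩ_{2d+1}` -/

section sl

/-- `A ↦ diag(A, det A⁻¹)` -/
def glSL (F : Type) [Field F] (k : ℕ) : GL (Fin k) F →* SpecialLinearGroup (Fin (k + 1)) F where
  toFun A := ⟨Matrix.reindex finSumFinEquiv finSumFinEquiv
      (fromBlocks A.1 0 0 (Matrix.scalar (Fin 1) ((((GeneralLinearGroup.det A)⁻¹ : Fˣ) : F)))), by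
    rw [det_reindex_self, det_fromBlocks_zero₂₁, det_fin_one, scalar_apply, diagonal_apply_eq]
    change ((GeneralLinearGroup.det A : Fˣ) : F) * _ = 1
    exact Units.mul_inv _⟩
  map_one' := by
    apply Subtype.ext
    change Matrix.reindex finSumFinEquiv finSumFinEquiv (fromBlocks (1 : Matrix (Fin k) (Fin k) F) 0 0 _) = 1
    rw [map_one, inv_one, Units.val_one, map_one, fromBlocks_one, reindex_apply, submatrix_one_equiv]
  map_mul' A B := by
    apply Subtype.ext
    change Matrix.reindex finSumFinEquiv finSumFinEquiv (fromBlocks (A.1 * B.1) 0 0 _) =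
      Matrix.reindex finSumFinEquiv finSumFinEquiv (fromBlocks A.1 0 0 _) *
        Matrix.reindex finSumFinEquiv finSumFinEquiv (fromBlocks B.1 0 0 _)
    rw [reindex_apply, reindex_apply, reindex_apply, submatrix_mul_equiv, fromBlocks_multiply, map_mul, mul_inv,
      Units.val_mul, map_mul]
    simp

theorem glSL_injective (F : Type) [Field F] (k : ℕ) : Function.Injective (glSL F k) := by
  intro A B h
  have h1 := (Matrix.reindex finSumFinEquiv finSumFinEquiv).injective (congrArg Subtype.val h)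
  exact Units.ext (Matrix.fromBlocks_inj.1 h1).1

theorem exists_sl (F : Type) [Field F] [Finite F] {k : ℕ} (hk : k ≠ 0) :
    ∃ A : SpecialLinearGroup (Fin (k + 1)) F, orderOf A = Nat.card F ^ k - 1 := by
  obtain ⟨A, hA⟩ := Cfsg.Agent.H376.PrimeOrd.exists_GL (F := F) k hk _ dvd_rfl
  exact ⟨glSL F k A, by rw [orderOf_injective _ (glSL_injective F k), hA]⟩

/-- `SL_d → PSp_{2d}` -/
noncomputable def slSp (F : Type) [Field F] (d : ℕ) : SpecialLinearGroup (Fin d) F →* PSp d F :=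
  (QuotientGroup.mk' _).comp ((H982.LawFam.gSp F d).comp SpecialLinearGroup.toGL)

theorem slSp_injective (F : Type) [Field F] {d : ℕ} (hd : Odd d) : Function.Injective (slSp F d) := by
  rw [injective_iff_map_eq_one]
  intro A hA
  have h1 : H982.LawFam.gSp F d (SpecialLinearGroup.toGL A) ∈ Subgroup.center (symplecticGroup (Fin d) F) :=
    (QuotientGroup.eq_one_iff _).1 hA
  obtain ⟨a, ha⟩ := (LieClassical.SympCenter.mem_center_iff d _).1 h1
  have h2 : fromBlocks ((SpecialLinearGroup.toGL A : GL (Fin d) F) : Matrix (Fin d) (Fin d) F) 0 0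
      (((SpecialLinearGroup.toGL A : GL (Fin d) F)⁻¹ : GL (Fin d) F) : Matrix (Fin d) (Fin d) F)ᵀ =
      fromBlocks (a • 1) 0 0 (a • 1) := by
    have h3 : (a • (1 : Matrix (Fin d ⊕ Fin d) (Fin d ⊕ Fin d) F)) = fromBlocks (a • 1) 0 0 (a • 1) := by
      rw [← fromBlocks_one, fromBlocks_smul]
      simp
    rw [← h3, ← ha]
    rfl
  obtain ⟨h3, -, -, h4⟩ := Matrix.fromBlocks_inj.1 h2
  have h5 : (((SpecialLinearGroup.toGL A : GL (Fin d) F)⁻¹ : GL (Fin d) F) : Matrix (Fin d) (Fin d) F) = a • 1 := by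
    have := congrArg Matrix.transpose h4
    rwa [transpose_transpose, transpose_smul, transpose_one] at this
  have h6 : (a * a) • (1 : Matrix (Fin d) (Fin d) F) = 1 := by
    have e := Units.mul_inv (SpecialLinearGroup.toGL A : GL (Fin d) F)
    rw [h3, h5, smul_mul_smul_comm, mul_one] at e
    exact e
  have hd0 : 0 < d := hd.pos
  have h7 : a * a = 1 := by
    have := congrFun (congrFun h6 ⟨0, hd0⟩) ⟨0, hd0⟩
    simpa using this
  have h8 : a ^ d = 1 := by
    have e := A.2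
    have e1 : (A : Matrix (Fin d) (Fin d) F) = a • 1 := h3
    rw [e1, det_smul, det_one, mul_one, Fintype.card_fin] at e
    exact e
  obtain ⟨t, ht⟩ := hd
  rw [ht, pow_succ, pow_mul, pow_two, h7, one_pow, one_mul] at h8
  apply Subtype.ext
  have e1 : (A : Matrix (Fin d) (Fin d) F) = a • 1 := h3
  rw [e1, h8, one_smul]
  rfl

/-- `SL_d → O_{2d+1}` -/
noncomputable def slO (F : Type) [Field F] (d : ℕ) :
    SpecialLinearGroup (Fin d) F →* isometryGroup F (quadFormOdd d F) :=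
  (H982.LawFam.gOdd F d).comp SpecialLinearGroup.toGL

theorem slO_mem (F : Type) [Field F] {d : ℕ} (hd : 3 ≤ d) (A : SpecialLinearGroup (Fin d) F) :
    slO F d A ∈ Omega F (quadFormOdd d F) := by
  have h1 : A ∈ commutator (SpecialLinearGroup (Fin d) F) := by
    rw [S0248.result d hd]
    exact Subgroup.mem_top A
  have h2 := Abelianization.commutator_subset_ker
    ((Abelianization.of (G := isometryGroup F (quadFormOdd d F))).comp (slO F d)) h1
  exact (QuotientGroup.eq_one_iff _).1 (MonoidHom.mem_ker.1 h2)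

theorem center_bot (F : Type) [Field F] (h2 : (2 : F) ≠ 0) {d : ℕ} (hd : 1 ≤ d) :
    Subgroup.center (Omega F (quadFormOdd d F)) = ⊥ := by
  have h3 := LieClassical.OrthCenter.center_omega_eq_bot_of_odd h2
    (LieClassical.OmegaReindex.quadOdd_nondegenerate (F := F) (m := d) h2)
    (by simp only [Fintype.card_sum, Fintype.card_fin, Fintype.card_unit]; omega)
    (by
      simp only [Fintype.card_sum, Fintype.card_fin, Fintype.card_unit]
      exact ⟨d, by omega⟩)
    (LieClassical.OmegaReindex.quadOdd_isotropic hd)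
  rwa [LieClassical.OmegaReindex.coe_quadOdd] at h3

/-- `SL_d → PΩ_{2d+1}` -/
noncomputable def slPO (F : Type) [Field F] {d : ℕ} (hd : 3 ≤ d) :
    SpecialLinearGroup (Fin d) F →* POmega F (quadFormOdd d F) :=
  (QuotientGroup.mk' _).comp ((slO F d).codRestrict _ (slO_mem F hd))

theorem toGL_injective (F : Type) [Field F] (d : ℕ) :
    Function.Injective (SpecialLinearGroup.toGL : SpecialLinearGroup (Fin d) F →* GL (Fin d) F) := by
  intro A B h
  exact Subtype.ext (congrArg Units.val h)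

theorem slPO_injective (F : Type) [Field F] (h2 : (2 : F) ≠ 0) {d : ℕ} (hd : 3 ≤ d) :
    Function.Injective (slPO F hd) := by
  rw [injective_iff_map_eq_one]
  intro A hA
  have h1 : (slO F d).codRestrict _ (slO_mem F hd) A ∈ Subgroup.center (Omega F (quadFormOdd d F)) :=
    (QuotientGroup.eq_one_iff _).1 hA
  rw [center_bot F h2 (by omega), Subgroup.mem_bot] at h1
  have h3 : slO F d A = 1 := congrArg Subtype.val h1
  have h4 : SpecialLinearGroup.toGL A = 1 := H982.LawFam.gOdd_injective F d (by rw [map_one]; exact h3)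
  exact toGL_injective F d (by rw [h4, map_one])

end sl

/-! ### The elimination -/

section core

variable {p q k : ℕ} {S : Type*} [Group S]

/-- the main principle -/
theorem eq_of (h : TK p q k S) {N r : ℕ} (hr : r.Prime) (hrm : r ∣ mn q k) (hrN : r ∣ N)
    (hN : ∃ x : S, orderOf x = N)
    (hv : ∀ s j : ℕ, s.Prime → s ∣ mn q k → 1 ≤ j → s ^ j ∣ Nat.card S → s ^ j ∣ N) : N = mn q k := by
  obtain ⟨x, rfl⟩ := hN
  have hm := h.mn_ge
  have h0 : mn q k ≠ 0 := by omega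
  apply Nat.dvd_antisymm (h.iso r x hr hrm hrN)
  rw [← Nat.factorization_prime_le_iff_dvd h0]
  · intro s hs
    by_cases hsm : s ∣ mn q k
    · have h1 : s ^ (mn q k).factorization s ∣ mn q k := Nat.ordProj_dvd _ _
      have h2 : 1 ≤ (mn q k).factorization s := (hs.dvd_iff_one_le_factorization h0).1 hsm
      have h3 := hv s _ hs hsm h2 (h1.trans h.dvd_card)
      have hx0 : orderOf x ≠ 0 := by
        intro h4
        have h5 := h.iso r x hr hrm hrN
        rw [h4] at h5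
        exact h0 (Nat.eq_zero_of_zero_dvd h5)
      exact (hs.pow_dvd_iff_le_factorization hx0).1 h3
    · rw [Nat.factorization_eq_zero_of_not_dvd hsm]
      exact Nat.zero_le _
  · intro h4
    have h5 := h.iso r x hr hrm hrN
    rw [h4] at h5
    exact h0 (Nat.eq_zero_of_zero_dvd h5)

/-- the neighbours of a prime divisor of `mn q k` divide `mn q k` -/
theorem adj (h : TK p q k S) {r s : ℕ} (hrm : r ∣ mn q k) (ha : Adj S r s) : s ∣ mn q k := by
  obtain ⟨hr, hs, hne, x, y, hx, hy, hxy⟩ := ha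
  have h1 : orderOf (x * y) = r * s := by
    rw [hxy.orderOf_mul_eq_mul_orderOf_of_coprime (by rw [hx, hy]; exact (Nat.coprime_primes hr hs).2 hne), hx, hy]
  have h2 := h.iso r (x * y) hr hrm (by rw [h1]; exact Dvd.intro _ rfl)
  rw [h1] at h2
  exact (Dvd.intro_left _ rfl : s ∣ r * s).trans h2

theorem mn_odd (h : TK p q k S) : Odd (mn q k) := by
  have := h.mn_mod
  rw [Nat.odd_iff]
  omega

theorem exists_prime (h : TK p q k S) : ∃ r : ℕ, r.Prime ∧ r ∣ mn q k :=
  Nat.exists_prime_and_dvd (by have := h.mn_ge; omega)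

/-- the numerical contradiction for `2 m = u ^ d - 1` -/
theorem minus_false (h : TK p q k S) {d u : ℕ} (hd : 2 ≤ d) (huo : Odd u) (hu2 : 2 ≤ u)
    (hR : ∀ r, r.Prime → r ∣ mn q k → ∀ i, 1 ≤ i → i < d → ¬ r ∣ u ^ (2 * i) - 1)
    (hsl : Odd d → ∃ x : S, orderOf x = u ^ (d - 1) - 1) (hm : u ^ d - 1 = 2 * mn q k) : False := by
  have hmo := mn_odd h
  have hmg := h.mn_ge
  have hq := h.odd
  have h2m := two_mn h.hk2 hq
  -- 4 does not divide `2 m`
  have h4 : ¬ 4 ∣ 2 * mn q k := by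
    obtain ⟨c, hc⟩ := hmo
    omega
  -- `d` is odd
  have hdo : Odd d := by
    by_contra hde
    rw [Nat.not_odd_iff_even] at hde
    obtain ⟨e, he⟩ := hde
    have h1 : u ^ 2 - 1 ∣ u ^ d - 1 := by
      rw [he, ← two_mul, pow_mul]
      simpa using Nat.sub_dvd_pow_sub_pow (u ^ 2) 1 e
    have h8 : 4 ∣ u ^ 2 - 1 := by
      obtain ⟨c, hc⟩ := huo
      have : u ^ 2 = 4 * (c ^ 2 + c) + 1 := by rw [hc]; ring
      omega
    exact h4 (hm ▸ h8.trans h1)
  -- `u = 3`
  have hu3 : u = 3 := by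
    have h1 : u - 1 ∣ u ^ d - 1 := by simpa using Nat.sub_dvd_pow_sub_pow u 1 d
    obtain ⟨c, hc⟩ := huo
    have hc1 : u - 1 = 2 * c := by omega
    rw [hc1, hm] at h1
    have h5 : c ∣ mn q k := Nat.dvd_of_mul_dvd_mul_left (by norm_num) h1
    have h6 : c = 1 := by
      by_contra hcne
      obtain ⟨r, hr, hrc⟩ := Nat.exists_prime_and_dvd hcne
      refine hR r hr (hrc.trans h5) 1 le_rfl (by omega) ?_
      have h7 : r ∣ u - 1 := by rw [hc1]; exact hrc.mul_left 2
      refine h7.trans ?_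
      simpa using Nat.sub_dvd_pow_sub_pow u 1 2
    omega
  subst hu3
  obtain ⟨x, hx⟩ := hsl hdo
  have hd1 : 3 ^ d = 3 * 3 ^ (d - 1) := by
    rw [← pow_succ', Nat.sub_add_cancel (by omega)]
  have hpos : 3 ≤ 3 ^ (d - 1) := by
    calc 3 = 3 ^ 1 := by norm_num
      _ ≤ 3 ^ (d - 1) := Nat.pow_le_pow_right (by norm_num) (by omega)
  obtain ⟨j, w, hw, hjw⟩ := Nat.exists_eq_two_pow_mul_odd (n := 3 ^ (d - 1) - 1) (by omega)
  have h7 := h.two j x (by rw [hx, hjw]; exact dvd_mul_right _ _)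
  obtain ⟨c, hc⟩ := h7
  have h8 : 2 * (mn q k - 1) = 3 * (3 ^ (d - 1) - 1) := by omega
  rw [hc, hjw] at h8
  have h9 : 2 * c = 3 * w := by
    have h10 : 2 ^ j * (2 * c) = 2 ^ j * (3 * w) := by
      calc 2 ^ j * (2 * c) = 2 * (2 ^ j * c) := by ring
        _ = 3 * (2 ^ j * w) := h8
        _ = 2 ^ j * (3 * w) := by ring
    exact Nat.eq_of_mul_eq_mul_left (by positivity) h10
  obtain ⟨b, hb⟩ := hw
  omega

theorem core [Finite S] (h : TK p q k S) {d u : ℕ} (hd : 2 ≤ d) (hu : IsPrimePow u) (hvu : ¬ p ∣ u)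
    (hinfo : ∀ r, r.Prime → r ≠ 2 → r ∣ Nat.card S → ¬ Adj S r 2 →
      (r ∣ u ^ d - 1 ∨ r ∣ u ^ d + 1) ∧ ∀ i, 1 ≤ i → i < d → ¬ r ∣ u ^ (2 * i) - 1)
    (hodd : ∀ N, Odd N → (N ∣ u ^ d - 1 ∨ N ∣ u ^ d + 1) → ∃ x : S, orderOf x = N)
    (hev : ∀ N, 0 < N → (2 * N ∣ u ^ d - 1 ∨ 2 * N ∣ u ^ d + 1) → ∃ x : S, orderOf x = N)
    (hcard : ∃ c, c ∣ 2 ∧ c * Nat.card S = u ^ (d ^ 2) * prB u d)
    (hsl : Odd d → ∃ x : S, orderOf x = u ^ (d - 1) - 1) : False := by
  obtain ⟨cc, -, hcard⟩ := hcard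
  have hqo := h.odd
  have hmg := h.mn_ge
  have h2m := two_mn h.hk2 hqo
  have hm8 := h.mn_mod
  have hu2 : 2 ≤ u := hu.two_le
  have hun : 4 ≤ u ^ d := by
    calc 4 = 2 ^ 2 := by norm_num
      _ ≤ 2 ^ d := Nat.pow_le_pow_right (by norm_num) hd
      _ ≤ u ^ d := Nat.pow_le_pow_left hu2 d
  have e2n : u ^ (2 * d) - 1 = (u ^ d + 1) * (u ^ d - 1) := by
    rw [mul_comm, pow_mul]
    have := Nat.sq_sub_sq (u ^ d) 1
    rw [one_pow] at this
    exact this
  -- the primes of `mn q k`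
  have hR : ∀ r, r.Prime → r ∣ mn q k → (r ∣ u ^ d - 1 ∨ r ∣ u ^ d + 1) ∧
      (∀ i, 1 ≤ i → i < d → ¬ r ∣ u ^ (2 * i) - 1) ∧ ¬ r ∣ u := by
    intro r hr hrm
    have h1 := hinfo r hr (h.ne_two_of_dvd hrm) (hrm.trans h.dvd_card) fun ha =>
      h.ne_two_of_dvd (adj h hrm ha) rfl
    refine ⟨h1.1, h1.2, fun h2 => ?_⟩
    have h3 : r ∣ u ^ d := dvd_pow h2 (by omega)
    rcases h1.1 with h4 | h4
    · have h5 := Nat.dvd_sub h3 h4
      rw [show u ^ d - (u ^ d - 1) = 1 by omega] at h5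
      exact hr.one_lt.ne' (Nat.dvd_one.1 h5)
    · have h5 := (Nat.dvd_add_right h3).1 h4
      exact hr.one_lt.ne' (Nat.dvd_one.1 h5)
  have hC : ∀ s j : ℕ, s.Prime → s ∣ mn q k → s ^ j ∣ Nat.card S → s ^ j ∣ (u ^ d + 1) * (u ^ d - 1) := by
    intro s j hs hsm hk
    obtain ⟨-, h1, h2⟩ := hR s hs hsm
    rw [← e2n]
    refine H104.TSp.pow_dvd_of (by omega) hs h2 h1 (e := d ^ 2) ?_
    rw [← hcard]
    exact hk.mul_left cc
  have hcop : ∀ s j A B : ℕ, s.Prime → ¬ s ∣ B → s ^ j ∣ A * B → s ^ j ∣ A := fun s j A B hs hB hd =>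
    (Nat.Coprime.pow_left j ((hs.coprime_iff_not_dvd).2 hB)).dvd_of_dvd_mul_right hd
  have hs2 : ∀ s, s ∣ mn q k → s.Prime → ¬ s ∣ 2 := fun s hsm hs hs2 =>
    h.ne_two_of_dvd hsm ((Nat.prime_dvd_prime_iff_eq hs Nat.prime_two).1 hs2)
  rcases Nat.even_or_odd u with hue | huo
  · -- `u` even
    have h4 : 4 ∣ u ^ d := by
      obtain ⟨t, ht⟩ := hue
      obtain ⟨j, rfl⟩ : ∃ j, d = 2 + j := ⟨d - 2, by omega⟩
      rw [pow_add]
      exact Dvd.dvd.mul_right ⟨t ^ 2, by rw [ht]; ring⟩ _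
    obtain ⟨t, ht⟩ := h4
    have hex : ∀ N, Odd N → (N = u ^ d - 1 ∨ N = u ^ d + 1) → ∃ x : S, orderOf x = N := fun N hN hN' =>
      hodd N hN (hN'.imp (fun h => dvd_of_eq h) (fun h => dvd_of_eq h))
    have o1 : Odd (u ^ d - 1) := ⟨2 * t - 1, by omega⟩
    have o2 : Odd (u ^ d + 1) := ⟨2 * t, by omega⟩
    by_cases hA : ∃ r : ℕ, r.Prime ∧ r ∣ mn q k ∧ r ∣ u ^ d + 1
    · by_cases hB : ∃ r : ℕ, r.Prime ∧ r ∣ mn q k ∧ r ∣ u ^ d - 1
      · obtain ⟨r, hr, hrm, hrd⟩ := hA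
        obtain ⟨s, hs, hsm, hsd⟩ := hB
        obtain ⟨x, hx⟩ := hex _ o2 (Or.inr rfl)
        obtain ⟨y, hy⟩ := hex _ o1 (Or.inl rfl)
        have h5 := h.iso r x hr hrm (by rw [hx]; exact hrd)
        have h6 := h.iso s y hs hsm (by rw [hy]; exact hsd)
        rw [hx] at h5
        rw [hy] at h6
        have hco : Nat.Coprime (u ^ d + 1) (u ^ d - 1) := by
          rw [show u ^ d + 1 = (u ^ d - 1) + 2 by omega, Nat.coprime_self_add_left]
          exact Nat.coprime_two_left.2 o1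
        have h7 := hco.mul_dvd_of_dvd_of_dvd h5 h6
        have h8 : mn q k ∣ (u ^ d + 1) * (u ^ d - 1) := by
          rw [Nat.dvd_iff_prime_pow_dvd_dvd]
          intro s j hs hk
          rcases Nat.eq_zero_or_pos j with rfl | hk0
          · simp
          · exact hC s j hs ((dvd_pow_self s (by omega)).trans hk) (hk.trans h.dvd_card)
        have h9 := Nat.dvd_antisymm h8 h7
        obtain ⟨w, hw⟩ : ∃ w, t = w + 1 := ⟨t - 1, by omega⟩
        have h10 : (u ^ d + 1) * (u ^ d - 1) = 8 * (2 * w ^ 2 + 4 * w + 1) + 7 := by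
          rw [ht, hw, show 4 * (w + 1) - 1 = 4 * w + 3 by omega]
          ring
        omega
      · obtain ⟨r, hr, hrm, hrd⟩ := hA
        have h5 : u ^ d + 1 = mn q k := eq_of h hr hrm hrd (hex _ o2 (Or.inr rfl)) fun s j hs hsm _ hk =>
          hcop s j _ _ hs (fun h6 => hB ⟨s, hs, hsm, h6⟩) (hC s j hs hsm hk)
        -- a power of two plus one
        obtain ⟨l, a, hl, ha, rfl⟩ := hu
        have h10 : 2 = l := (Nat.prime_dvd_prime_iff_eq Nat.prime_two hl.nat_prime).1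
          (Nat.prime_two.dvd_of_dvd_pow hue.two_dvd)
        rw [← h10, ← pow_mul] at h5
        exact h.not_two_pow _ h5.symm
    · obtain ⟨r, hr, hrm⟩ := exists_prime h
      have hrd : r ∣ u ^ d - 1 := (hR r hr hrm).1.resolve_right fun h6 => hA ⟨r, hr, hrm, h6⟩
      have h5 : u ^ d - 1 = mn q k := eq_of h hr hrm hrd (hex _ o1 (Or.inl rfl)) fun s j hs hsm _ hk =>
          hcop s j _ _ hs (fun h6 => hA ⟨s, hs, hsm, h6⟩) (by rw [mul_comm]; exact hC s j hs hsm hk)
      omega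
  · -- `u` odd
    obtain ⟨t, ht⟩ : Odd (u ^ d) := huo.pow
    have e1 : u ^ d + 1 = 2 * (t + 1) := by omega
    have e2 : u ^ d - 1 = 2 * t := by omega
    have x1 : ∃ x : S, orderOf x = t + 1 := hev _ (by omega) (Or.inr (by rw [e1]))
    have x2 : ∃ x : S, orderOf x = t := hev _ (by omega) (Or.inl (by rw [e2]))
    have ds : ∀ s : ℕ, s.Prime → s ∣ mn q k → ∀ N : ℕ, s ∣ 2 * N → s ∣ N := fun s hs hsm N hd =>
      (hs.dvd_mul.1 hd).resolve_left (hs2 s hsm hs)
    by_cases hA : ∃ r : ℕ, r.Prime ∧ r ∣ mn q k ∧ r ∣ t + 1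
    · by_cases hB : ∃ r : ℕ, r.Prime ∧ r ∣ mn q k ∧ r ∣ t
      · obtain ⟨r, hr, hrm, hrd⟩ := hA
        obtain ⟨s, hs, hsm, hsd⟩ := hB
        obtain ⟨x, hx⟩ := x1
        obtain ⟨y, hy⟩ := x2
        have h5 := h.iso r x hr hrm (by rw [hx]; exact hrd)
        have h6 := h.iso s y hs hsm (by rw [hy]; exact hsd)
        rw [hx] at h5
        rw [hy] at h6
        obtain ⟨a, ha⟩ := Odd.of_dvd_nat (mn_odd h) h5
        obtain ⟨b, hb⟩ := Odd.of_dvd_nat (mn_odd h) h6
        omega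
      · obtain ⟨r, hr, hrm, hrd⟩ := hA
        have h5 : t + 1 = mn q k := eq_of h hr hrm hrd x1 fun s j hs hsm _ hk => by
          have h6 := hC s j hs hsm hk
          rw [e1, e2] at h6
          have h7 : s ^ j ∣ (t + 1) * (4 * t) := by
            rw [show (t + 1) * (4 * t) = 2 * (t + 1) * (2 * t) by ring]
            exact h6
          refine hcop s j _ _ hs (fun h8 => ?_) h7
          exact hB ⟨s, hs, hsm, ds s hs hsm _ (ds s hs hsm _ (by
            rw [show 2 * (2 * t) = 4 * t by ring]; exact h8))⟩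
        -- `u ^ d = q ^ n`
        have h6 : u ^ d = q ^ 2 ^ k := by omega
        apply hvu
        have h7 : p ∣ u ^ d := by
          rw [h6]
          exact dvd_pow h.dvd (pow_pos (by norm_num) k).ne'
        exact h.prime.dvd_of_dvd_pow h7
    · obtain ⟨r, hr, hrm⟩ := exists_prime h
      have hrd : r ∣ t := by
        rcases (hR r hr hrm).1 with h6 | h6
        · rw [e2] at h6
          exact ds r hr hrm _ h6
        · rw [e1] at h6
          exact absurd ⟨r, hr, hrm, ds r hr hrm _ h6⟩ hA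
      have h5 : t = mn q k := eq_of h hr hrm hrd x2 fun s j hs hsm _ hk => by
        have h6 := hC s j hs hsm hk
        rw [e1, e2] at h6
        have h7 : s ^ j ∣ t * (4 * (t + 1)) := by
          rw [show t * (4 * (t + 1)) = 2 * (t + 1) * (2 * t) by ring]
          exact h6
        refine hcop s j _ _ hs (fun h8 => ?_) h7
        exact hA ⟨s, hs, hsm, ds s hs hsm _ (ds s hs hsm _ (by
          rw [show 2 * (2 * (t + 1)) = 4 * (t + 1) by ring]; exact h8))⟩
      exact minus_false h hd huo hu2 (fun r hr hrm => (hR r hr hrm).2.1) hsl (by rw [e2, h5])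

end core

theorem psp {p q k d u : ℕ} {S : Type*} [Group S] [Finite S] (h : TK p q k S) (hg : IsNamed (.psp d u) S)
    (hv : ¬ p ∣ u) : False := by
  obtain ⟨hn, -, hu⟩ := hg.cond
  obtain ⟨F, _, _, hF, ⟨e⟩⟩ := hg.real
  have h' := h.congr e
  have hc : Nat.card S = Nat.card (PSp d F) := Nat.card_congr e.toEquiv
  have hFc : Nat.card F = u := by rw [Nat.card_eq_fintype_card, hF]
  have : Finite (PSp d F) := Finite.of_equiv S e.toEquiv
  refine core h' hn hu hv ?_ ?_ ?_ ⟨Nat.gcd 2 (u - 1), Nat.gcd_dvd_left _ _, ?_⟩ ?_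
  · intro r hr hr2 hd ha
    rw [← hFc]
    exact Cfsg.Agent.H377.psp_info hn hr hr2 hd ha
  · intro N hN hd
    rw [← hFc] at hd
    rcases hd with hd | hd
    · exact Cfsg.Agent.H377.exists_psp_tor_plus (by omega) hN.pos (Or.inl ⟨hN, hd⟩)
    · exact Cfsg.Agent.H377.exists_psp_tor_minus (by omega) hN.pos (Or.inl ⟨hN, hd⟩)
  · intro N hN hd
    rw [← hFc] at hd
    rcases hd with hd | hd
    · exact Cfsg.Agent.H377.exists_psp_tor_plus (by omega) hN (Or.inr hd)
    · exact Cfsg.Agent.H377.exists_psp_tor_minus (by omega) hN (Or.inr hd)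
  · rw [← hc]
    exact hg.eq
  · intro hdo
    obtain ⟨j, rfl⟩ : ∃ j, d = j + 1 := ⟨d - 1, by omega⟩
    obtain ⟨A, hA⟩ := exists_sl F (k := j) (by omega)
    refine ⟨slSp F (j + 1) A, ?_⟩
    rw [orderOf_injective _ (slSp_injective F hdo), hA, hFc, Nat.add_sub_cancel]

theorem oodd {p q k d u : ℕ} {S : Type*} [Group S] [Finite S] (h : TK p q k S) (hg : IsNamed (.oodd d u) S)
    (hv : ¬ p ∣ u) : False := by
  obtain ⟨hn, ho, hu⟩ := hg.cond
  obtain ⟨F, _, _, hF, ⟨e⟩⟩ := hg.real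
  have h' := h.congr e
  have hc : Nat.card S = Nat.card (POmega F (quadFormOdd d F)) := Nat.card_congr e.toEquiv
  have hFc : Nat.card F = u := by rw [Nat.card_eq_fintype_card, hF]
  have hoF : Odd (Nat.card F) := by rw [hFc]; exact ho
  have : Finite (POmega F (quadFormOdd d F)) := Finite.of_equiv S e.toEquiv
  refine core h' (show 2 ≤ d by omega) hu hv ?_ ?_ ?_ ⟨2, dvd_rfl, ?_⟩ ?_
  · intro r hr hr2 hd ha
    rw [← hFc]
    exact Cfsg.Agent.H377.OOdd.info hoF hn hr hr2 hd ha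
  · intro N hN hd
    rw [← hFc] at hd
    rcases hd with hd | hd
    · exact Cfsg.Agent.H377.OOdd.exists_odd_tor hoF hn hN (Cfsg.Agent.H377.elt_tor_plus (by omega) hd)
    · exact Cfsg.Agent.H377.OOdd.exists_odd_tor hoF hn hN (Cfsg.Agent.H377.elt_tor_minus (by omega) hd)
  · intro N hN hd
    rw [← hFc] at hd
    rcases hd with hd | hd
    · exact Cfsg.Agent.H377.OOdd.exists_even_tor hoF hn (Cfsg.Agent.H377.elt_tor_plus (by omega) hd)
    · exact Cfsg.Agent.H377.OOdd.exists_even_tor hoF hn (Cfsg.Agent.H377.elt_tor_minus (by omega) hd)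
  · rw [← hc]
    exact hg.eq
  · intro _
    obtain ⟨j, rfl⟩ : ∃ j, d = j + 1 := ⟨d - 1, by omega⟩
    obtain ⟨A, hA⟩ := exists_sl F (k := j) (by omega)
    refine ⟨slPO F hn A, ?_⟩
    rw [orderOf_injective _ (slPO_injective F (Cfsg.Agent.H377.OOdd.two_ne_zero_of_odd hoF) hn), hA, hFc,
      Nat.add_sub_cancel]

end Cfsg.Agent.H239.TPSp
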